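import Mathlib
import Cfsg.Prelude.Def_FusionSystem
import Cfsg.Prelude.Def_FusionComponents
import Cfsg.Prelude.Def_FusionReduction
import Cfsg.Agent.Lib.Helper87.FSBasic
import Cfsg.Agent.Lib.Helper87.FSHyp
import Cfsg.Agent.Lib.Helper87.FSHyp2
import Cfsg.Agent.Lib.Helper86.FSMore
import Cfsg.Agent.H85.Basic
import Cfsg.Agent.H85.Aut
import Cfsg.Agent.H85.Hyp
import Cfsg.Agent.H85.ResAut
import Cfsg.Agent.H85.PPow
import Cfsg.Agent.H85.Iso1

/-! Residual limits: a saturated subsystem of `p`-power index has the same hyperfocal subgroup and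
the same `p`-residual subsystem; residual limits are unique; hence a saturated subsystem of
`p`-power index has the same residual limit. -/

set_option autoImplicit false
open Cfsg

namespace Cfsg.Agent.H85

section coprime

/-- Coprime action: if an automorphism `g` of order prime to `p` of a `p`-group `P` moves every
element inside `T` (`x⁻¹ g(x) ∈ T`), and `K` is normalized by `T` and contains `y⁻¹ g(y)` for
`y ∈ T`, then `x⁻¹ g(x) ∈ K` for every `x`. -/
theorem coprime_comm_aux {P : Type*} [Group P] {p : ℕ} [Fact p.Prime] (hP : IsPGroup p P)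
    (g : MulAut P) (hg : (orderOf g).Coprime p) (T K : Subgroup P)
    (hnorm : ∀ t ∈ T, ∀ k ∈ K, t⁻¹ * k * t ∈ K)
    (hT : ∀ x, x⁻¹ * g x ∈ T) (hK : ∀ y ∈ T, y⁻¹ * g y ∈ K) : ∀ x, x⁻¹ * g x ∈ K := by
  have h1 : ∀ n : ℕ, ∀ c ∈ T, c⁻¹ * (g ^ n) c ∈ K ∧ (g ^ n) c ∈ T := by
    intro n
    induction n with
    | zero =>
      intro c hc
      refine ⟨?_, ?_⟩
      · have : c⁻¹ * (g ^ 0) c = 1 := by simp
        rw [this]; exact K.one_mem
      · simpa using hc
    | succ n ih =>
      intro c hc
      have hgc : g c ∈ T := by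
        have := T.mul_mem hc (hT c)
        simpa using this
      obtain ⟨i1, i2⟩ := ih (g c) hgc
      have e : (g ^ (n + 1)) c = (g ^ n) (g c) := by
        rw [pow_succ]; rfl
      rw [e]
      refine ⟨?_, i2⟩
      have := K.mul_mem (hK c hc) i1
      have e2 : c⁻¹ * g c * ((g c)⁻¹ * (g ^ n) (g c)) = c⁻¹ * (g ^ n) (g c) := by group
      rw [e2] at this
      exact this
  have h2 : ∀ n : ℕ, ∀ x, ((x⁻¹ * g x) ^ n)⁻¹ * (x⁻¹ * (g ^ n) x) ∈ K ∧ x⁻¹ * (g ^ n) x ∈ T := by
    intro n
    induction n with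
    | zero =>
      intro x
      have : x⁻¹ * (g ^ 0) x = 1 := by simp
      rw [this]
      refine ⟨?_, T.one_mem⟩
      simp
    | succ n ih =>
      intro x
      obtain ⟨i1, i2⟩ := ih x
      obtain ⟨j1, j2⟩ := h1 n _ (hT x)
      have e : (g ^ (n + 1)) x = (g ^ n) x * (g ^ n) (x⁻¹ * g x) := by
        rw [pow_succ]
        show (g ^ n) (g x) = _
        rw [← map_mul]
        congr 1
        group
      rw [e]
      refine ⟨?_, ?_⟩
      · have k1 := hnorm _ (hT x) _ i1
        have := K.mul_mem k1 j1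
        have e2 : (x⁻¹ * g x)⁻¹ * (((x⁻¹ * g x) ^ n)⁻¹ * (x⁻¹ * (g ^ n) x)) * (x⁻¹ * g x) *
            ((x⁻¹ * g x)⁻¹ * (g ^ n) (x⁻¹ * g x)) =
            ((x⁻¹ * g x) ^ (n + 1))⁻¹ * (x⁻¹ * ((g ^ n) x * (g ^ n) (x⁻¹ * g x))) := by
          rw [pow_succ]; group
        rw [e2] at this
        exact this
      · have := T.mul_mem i2 j2
        have e2 : x⁻¹ * (g ^ n) x * (g ^ n) (x⁻¹ * g x) =
            x⁻¹ * ((g ^ n) x * (g ^ n) (x⁻¹ * g x)) := by group
        rw [e2] at this
        exact this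
  intro x
  have h3 := (h2 (orderOf g) x).1
  rw [pow_orderOf_eq_one] at h3
  have h4 : (x⁻¹ * g x) ^ orderOf g ∈ K := by
    have e : ((x⁻¹ * g x) ^ orderOf g)⁻¹ * (x⁻¹ * (1 : MulAut P) x) =
        ((x⁻¹ * g x) ^ orderOf g)⁻¹ := by simp
    rw [e] at h3
    exact (K.inv_mem_iff).mp h3
  obtain ⟨k, hk⟩ := hP (x⁻¹ * g x)
  have hcop : (orderOf g).Coprime (orderOf (x⁻¹ * g x)) := by
    have hd : orderOf (x⁻¹ * g x) ∣ p ^ k := orderOf_dvd_of_pow_eq_one hk
    exact Nat.Coprime.coprime_dvd_right hd (Nat.Coprime.pow_right k hg)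
  obtain ⟨m, hm⟩ := exists_pow_eq_self_of_coprime hcop
  rw [← hm]
  exact K.pow_mem h4 m

end coprime

section hyp

variable {Ω : Type*} [Group Ω] {S : Subgroup Ω}

open Cfsg.Agent.Lib.Helper87.FSHyp Cfsg.Agent.Lib.Helper87.FSHyp2

/-- An element of order prime to `p` lies in `O^p`. -/
theorem mem_pResidual_of_coprime {A : Type*} [Group A] {p : ℕ} {a : A}
    (h : (orderOf a).Coprime p) : a ∈ pResidual p A :=
  Subgroup.subset_closure h

/-- `O^p(A) ≤ K` as soon as `K` contains the elements of `A` of order prime to `p`. -/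
theorem pResidual_map_le_of {G : Type*} [Group G] (p : ℕ) {A K : Subgroup G}
    (h : ∀ a : A, (orderOf a).Coprime p → (a : G) ∈ K) :
    (pResidual p A).map A.subtype ≤ K := by
  unfold pResidual
  rw [MonoidHom.map_closure, Subgroup.closure_le]
  rintro _ ⟨a, ha, rfl⟩
  exact h a ha

/-- A subsystem of `p`-power index has the same hyperfocal subgroup. -/
theorem hyperfocal_eq_of_ppower (p : ℕ) [Fact p.Prime] (hS : IsPGroup p S)
    (F : FusionSystem S) {T : Subgroup Ω} (E : FusionSystem T)
    (hidx : E.HasPPowerIndexIn F p) : E.hyperfocalSubgroup p = F.hyperfocalSubgroup p := by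
  have hTS : T ≤ S := (F.le_of_mem (hidx.1 T (E.conj_mem le_rfl (one_mem T)))).1
  apply le_antisymm
  · apply hyperfocal_le_of
    intro P hPT g hg x
    have hg' : (orderOf (⟨g.1, Cfsg.Agent.Lib.Helper86.FSMore.autGroup_mono E F hidx.1 P g.2⟩ :
        F.autGroup P)).Coprime p := by
      rw [← Subgroup.orderOf_coe] at hg ⊢
      exact hg
    exact mem_hyperfocal_of F p (hPT.trans hTS) ⟨g.1, _⟩ (mem_pResidual_of_coprime hg') x
  · apply hyperfocal_le_of
    intro P hPS g hg x
    have hPp : IsPGroup p P := hS.to_le hPS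
    have hg1 : (orderOf (g : MulAut P)).Coprime p := by
      rw [Subgroup.orderOf_coe]; exact hg
    have hmove : ∀ y : P, (y : Ω)⁻¹ * (((g : MulAut P) y : P) : Ω) ∈ T := fun y =>
      hidx.2.1 (mem_hyperfocal_of F p hPS g (mem_pResidual_of_coprime hg) y)
    have hmove' : ∀ y : P, (y : Ω)⁻¹ * ((((g : MulAut P)⁻¹) y : P) : Ω) ∈ T := fun y =>
      hidx.2.1 (mem_hyperfocal_of F p hPS g⁻¹
        ((pResidual p (F.autGroup P)).inv_mem (mem_pResidual_of_coprime hg)) y)
    have hst : ∀ y : P, (y : Ω) ∈ P ⊓ T → (((g : MulAut P) y : P) : Ω) ∈ P ⊓ T := by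
      intro y hy
      refine ⟨((g : MulAut P) y).2, ?_⟩
      have := T.mul_mem hy.2 (hmove y)
      simpa using this
    have hst' : ∀ y : P, (y : Ω) ∈ P ⊓ T → ((((g : MulAut P)⁻¹) y : P) : Ω) ∈ P ⊓ T := by
      intro y hy
      refine ⟨(((g : MulAut P)⁻¹) y).2, ?_⟩
      have := T.mul_mem hy.2 (hmove' y)
      simpa using this
    have key := coprime_comm_aux (p := p) hPp (g : MulAut P) hg1 (T.subgroupOf P)
      ((E.hyperfocalSubgroup p).subgroupOf P) ?_ ?_ ?_ x
    · exact key
    · intro t ht k hk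
      rw [Subgroup.mem_subgroupOf] at ht hk ⊢
      have hn := le_normalizer_hyperfocal E p (T.inv_mem ht)
      have := (Subgroup.mem_normalizer_iff.mp hn (k : Ω)).mp hk
      simpa using this
    · intro y
      rw [Subgroup.mem_subgroupOf]
      exact hmove y
    · intro y hy
      rw [Subgroup.mem_subgroupOf] at hy ⊢
      have hyP0 : (y : Ω) ∈ P ⊓ T := ⟨y.2, hy⟩
      set g₀ : MulAut ↥(P ⊓ T) := resAut inf_le_left (g : MulAut P) hst hst' with hg₀
      have hg₀F : g₀ ∈ F.autGroup (P ⊓ T) := by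
        rw [mem_autGroup_iff F (inf_le_left.trans hPS)]
        have h1 := (mem_autGroup_iff F hPS _).mp g.2
        have h2 := restrict_mem F h1 (inf_le_left : P ⊓ T ≤ P)
        exact hom_congr F h2 (fun z => rfl)
      have hpow : ∀ n : ℕ, ∀ z : ↥(P ⊓ T), (((g₀ ^ n) z : ↥(P ⊓ T)) : Ω) =
          ((((g : MulAut P) ^ n) ⟨z, z.2.1⟩ : P) : Ω) := by
        intro n
        induction n with
        | zero => intro z; rfl
        | succ n ih =>
          intro z
          rw [pow_succ, pow_succ]
          show (((g₀ ^ n) (g₀ z) : ↥(P ⊓ T)) : Ω) = _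
          rw [ih]
          rfl
      have hord : orderOf g₀ ∣ orderOf (g : MulAut P) := by
        apply orderOf_dvd_of_pow_eq_one
        apply MulEquiv.ext
        intro z
        apply Subtype.ext
        rw [hpow, pow_orderOf_eq_one]
        rfl
      have hcop : (orderOf g₀).Coprime p := Nat.Coprime.coprime_dvd_left hord hg1
      have hcopF : (orderOf (⟨g₀, hg₀F⟩ : F.autGroup (P ⊓ T))).Coprime p := by
        rw [← Subgroup.orderOf_coe]; exact hcop
      have hg₀E : g₀ ∈ E.autGroup (P ⊓ T) :=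
        hidx.2.2 (P ⊓ T) inf_le_right ⟨⟨g₀, hg₀F⟩, mem_pResidual_of_coprime hcopF, rfl⟩
      have hcopE : (orderOf (⟨g₀, hg₀E⟩ : E.autGroup (P ⊓ T))).Coprime p := by
        rw [← Subgroup.orderOf_coe]; exact hcop
      exact mem_hyperfocal_of E p inf_le_right ⟨g₀, hg₀E⟩ (mem_pResidual_of_coprime hcopE)
        ⟨y, hyP0⟩

end hyp

section limit

variable {Ω : Type*} [Group Ω]

/-- Two fusion systems (over possibly different subgroups) with the same maps. -/
def HomEq {A B : Subgroup Ω} (X : FusionSystem A) (Y : FusionSystem B) : Prop :=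
  ∀ P : Subgroup Ω, X.Hom P = Y.Hom P

theorem HomEq.refl {A : Subgroup Ω} (X : FusionSystem A) : HomEq X X := fun _ => rfl

theorem HomEq.symm {A B : Subgroup Ω} {X : FusionSystem A} {Y : FusionSystem B}
    (h : HomEq X Y) : HomEq Y X := fun P => (h P).symm

theorem HomEq.trans {A B C : Subgroup Ω} {X : FusionSystem A} {Y : FusionSystem B}
    {Z : FusionSystem C} (h : HomEq X Y) (h' : HomEq Y Z) : HomEq X Z :=
  fun P => (h P).trans (h' P)

theorem HomEq.subgroup_eq {A B : Subgroup Ω} {X : FusionSystem A} {Y : FusionSystem B}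
    (h : HomEq X Y) : A = B := by
  apply le_antisymm
  · have h1 : A.subtype ∈ X.Hom A := subtype_mem X le_rfl
    rw [h A] at h1
    exact (Y.le_of_mem h1).1
  · have h1 : B.subtype ∈ Y.Hom B := subtype_mem Y le_rfl
    rw [← h B] at h1
    exact (X.le_of_mem h1).1

/-- Transport of any property along equality of maps. -/
theorem HomEq.elim {A B : Subgroup Ω} {X : FusionSystem A} {Y : FusionSystem B}
    (h : HomEq X Y) (motive : ∀ {C : Subgroup Ω}, FusionSystem C → Prop) (hX : motive X) :
    motive Y := by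
  obtain rfl := h.subgroup_eq
  obtain rfl := fs_ext h
  exact hX

/-- `F` is stable: it is its own `p`-residual (over the whole group) and its own
`p'`-residual. -/
def Stable {A : Subgroup Ω} (X : FusionSystem A) (p : ℕ) : Prop :=
  X.hyperfocalSubgroup p = A ∧ X.IsPPrimeResidual p X

/-- The `p'`-residual subsystems of systems with the same maps have the same maps. -/
theorem HomEq.pprime {p : ℕ} {A B : Subgroup Ω} {D : FusionSystem B} {X : FusionSystem A}
    (h : HomEq D X) {D' : FusionSystem B} {X' : FusionSystem A}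
    (hD : D.IsPPrimeResidual p D') (hX : X.IsPPrimeResidual p X') : HomEq D' X' := by
  obtain rfl := h.subgroup_eq
  obtain rfl := fs_ext h
  intro P
  exact Set.Subset.antisymm (hD.2.2 X' hX.1 hX.2.1 P) (hX.2.2 D' hD.1 hD.2.1 P)

theorem ppower_self {A : Subgroup Ω} (X : FusionSystem A) (p : ℕ) : X.HasPPowerIndexIn X p :=
  ⟨fun _ => subset_rfl, Cfsg.Agent.Lib.Helper87.FSHyp.hyperfocal_le X p,
    fun _ _ => Subgroup.map_subtype_le _⟩

/-- A residual limit of a stable system is the system itself. -/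
theorem resLimit_of_stable {p : ℕ} {L A : Subgroup Ω} {M : FusionSystem L} {X : FusionSystem A}
    (h : M.IsResidualLimitOf X p) :
    Fact p.Prime → Finite A → IsPGroup p A → Stable X p → HomEq M X := by
  induction h with
  | stable F p h1 h2 => intro _ _ _ _; exact HomEq.refl F
  | step F p D D' hD hD' hE ih =>
    rename_i T A E
    intro hp hfin hA hst
    have hle := Cfsg.Agent.Lib.Helper87.FSHyp.hyperfocal_le F p
    have h1 : HomEq D F :=
      ppower_index_unique p hA F hst.1 D F hD.1 hst.2.1 hD.2 (ppower_self F p)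
    have h2 : HomEq D' F := h1.pprime hD' hst.2
    have hst' : Stable D' p := h2.symm.elim (fun Z => Stable Z p) hst
    have hfin' : Finite ↥(F.hyperfocalSubgroup p) :=
      Finite.of_injective (Subgroup.inclusion hle) (Subgroup.inclusion_injective hle)
    exact (ih hp hfin' (hA.to_le hle) hst').trans h2

/-- Residual limits are unique. -/
theorem resLimit_unique {p : ℕ} {L A : Subgroup Ω} {M : FusionSystem L} {X : FusionSystem A}
    (h : M.IsResidualLimitOf X p) :
    Fact p.Prime → Finite A → IsPGroup p A →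
      ∀ {L' : Subgroup Ω} (M' : FusionSystem L'), M'.IsResidualLimitOf X p → HomEq M M' := by
  induction h with
  | stable F p h1 h2 =>
    intro hp hfin hA L' M' hM'
    exact (resLimit_of_stable hM' hp hfin hA ⟨h1, h2⟩).symm
  | step F p D D' hD hD' hE ih =>
    rename_i T A E
    intro hp hfin hA L' M' hM'
    have hle := Cfsg.Agent.Lib.Helper87.FSHyp.hyperfocal_le F p
    have hfin' : Finite ↥(F.hyperfocalSubgroup p) :=
      Finite.of_injective (Subgroup.inclusion hle) (Subgroup.inclusion_injective hle)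
    cases hM' with
    | stable _ _ h1 h2 =>
      exact resLimit_of_stable (FusionSystem.IsResidualLimitOf.step F p D D' hD hD' hE) hp hfin hA
        ⟨h1, h2⟩
    | step _ _ D₂ D₂' hD₂ hD₂' hE₂ =>
      have e1 : D = D₂ := fs_ext (ppower_index_unique p hA F rfl D D₂ hD.1 hD₂.1 hD.2 hD₂.2)
      subst e1
      have e2 : D' = D₂' := fs_ext ((HomEq.refl D).pprime hD' hD₂')
      subst e2
      exact ih hp hfin' (hA.to_le hle) M' hE₂

/-- A saturated subsystem of `p`-power index has the same residual limit. -/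
theorem resLimit_ppower {S : Subgroup Ω} [Finite S] (p : ℕ) [hp : Fact p.Prime]
    (hS : IsPGroup p S) (F : FusionSystem S) {T : Subgroup Ω} (E : FusionSystem T)
    (hEsat : E.IsSaturated p) (hidx : E.HasPPowerIndexIn F p) {U V : Subgroup Ω}
    (Finf : FusionSystem U) (hFinf : Finf.IsResidualLimitOf F p) (Einf : FusionSystem V)
    (hEinf : Einf.IsResidualLimitOf E p) : ∀ P : Subgroup Ω, Finf.Hom P = Einf.Hom P := by
  have hTS : T ≤ S := (F.le_of_mem (hidx.1 T (E.conj_mem le_rfl (one_mem T)))).1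
  have hfinT : Finite T := Finite.of_injective (Subgroup.inclusion hTS)
    (Subgroup.inclusion_injective hTS)
  have hT : IsPGroup p T := hS.to_le hTS
  have hhyp := hyperfocal_eq_of_ppower p hS F E hidx
  have hle := Cfsg.Agent.Lib.Helper87.FSHyp.hyperfocal_le F p
  have hfin' : Finite ↥(F.hyperfocalSubgroup p) :=
    Finite.of_injective (Subgroup.inclusion hle) (Subgroup.inclusion_injective hle)
  cases hFinf with
  | stable _ _ h1 h2 =>
    have hTeq : T = S := le_antisymm hTS (h1 ▸ hidx.2.1)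
    have h3 : HomEq E F :=
      ppower_index_unique p hS F hTeq E F hEsat h2.1 hidx (ppower_self F p)
    have h4 : Einf.IsResidualLimitOf F p :=
      h3.elim (fun Z => Einf.IsResidualLimitOf Z p) hEinf
    exact (resLimit_of_stable h4 hp inferInstance hS ⟨h1, h2⟩).symm
  | step _ _ D D' hD hD' hX =>
    cases hEinf with
    | stable _ _ h1 h2 =>
      have hTeq : F.hyperfocalSubgroup p = T := hhyp.symm.trans h1
      have h3 : HomEq D E := ppower_index_unique p hS F hTeq D E hD.1 hEsat hD.2 hidx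
      have h4 : HomEq D' E := h3.pprime hD' h2
      have h5 : Finf.IsResidualLimitOf E p :=
        h4.elim (fun Z => Finf.IsResidualLimitOf Z p) hX
      exact resLimit_of_stable h5 hp hfinT hT ⟨h1, h2⟩
    | step _ _ DE DE' hDE hDE' hY =>
      have hDEidx : DE.HasPPowerIndexIn F p := by
        refine ⟨fun P => (hDE.2.1 P).trans (hidx.1 P), hhyp.ge, ?_⟩
        intro P hP
        apply pResidual_map_le_of
        intro a ha
        have haE : (a : MulAut P) ∈ E.autGroup P :=
          hidx.2.2 P (hP.trans (Cfsg.Agent.Lib.Helper87.FSHyp.hyperfocal_le E p))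
            ⟨a, mem_pResidual_of_coprime ha, rfl⟩
        have hcop : (orderOf (⟨(a : MulAut P), haE⟩ : E.autGroup P)).Coprime p := by
          rw [← Subgroup.orderOf_coe] at ha ⊢
          exact ha
        exact hDE.2.2.2 P hP ⟨⟨(a : MulAut P), haE⟩, mem_pResidual_of_coprime hcop, rfl⟩
      have h3 : HomEq DE D := ppower_index_unique p hS F hhyp DE D hDE.1 hD.1 hDEidx hD.2
      have h4 : HomEq DE' D' := h3.pprime hDE' hD'
      have h5 : Einf.IsResidualLimitOf D' p :=
        h4.elim (fun Z => Einf.IsResidualLimitOf Z p) hY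
      exact resLimit_unique hX hp hfin' (hS.to_le hle) Einf h5

end limit

end Cfsg.Agent.H85
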